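import Cfsg.Agent.H509.TwoFrame
import Cfsg.Agent.H516.TwoFrame

/-!
# The rows `NXC L` also exclude the weak context of S4095 (helper948)

`false_of_nxc` : in `TwoFrame.Ctx 2 L x` with `2 ∣ o(x)` the property `NXC L` is impossible.
-/

set_option autoImplicit false

namespace Cfsg.Agent.H948

open Subgroup Cfsg
open Cfsg.Agent.H509.TwoFrame Cfsg.Agent.H516.Two Cfsg.Agent.H516.Zip

universe u

variable {G : Type u} [Group G] [Finite G] {L : Subgroup G} {x : G}

/-- A Sylow subgroup of `G` as `Mx 2 T ⊤`. -/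
theorem mx_of_sylow [Fact (Nat.Prime 2)] (T₀ : Sylow 2 G) : Mx 2 (T₀ : Subgroup G) ⊤ := by
  have h1 : (T₀ : Subgroup G) = ((T₀.subtype (le_top : (T₀ : Subgroup G) ≤ ⊤) : Sylow 2 (⊤ : Subgroup G)) :
      Subgroup (⊤ : Subgroup G)).map (⊤ : Subgroup G).subtype := by
    ext y
    constructor
    · intro hy
      exact ⟨⟨y, mem_top y⟩, hy, rfl⟩
    · rintro ⟨w, hw, rfl⟩
      exact hw
  rw [h1]
  exact Mx.of_sylow _

/-- **`NXC L` is impossible in the weak context.** -/
theorem false_of_nxc (C : Ctx 2 L x) (hn : NXC L) (hx2 : 2 ∣ orderOf x) : False := by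
  have h2 : Fact (Nat.Prime 2) := ⟨Nat.prime_two⟩
  have hL := C.normal
  obtain ⟨n, k, hk, hxn⟩ := exists_pow hx2
  obtain ⟨T₀⟩ : Nonempty (Sylow 2 G) := inferInstance
  obtain ⟨W, hWp, hW1, hTW, hW⟩ := C.exists_W hk hxn T₀
  obtain ⟨T, hT⟩ := exists_sylow_inf hL (mx_of_sylow T₀)
  have key : (normalizer (W : Set G)).subgroupOf L = ⊤ := by
    apply hn.all T
    intro H hH hH' hinv
    rw [hT] at hinv
    set H' := H.map L.subtype with hH'def
    have hD : normalizer (H' : Set G) ≠ ⊤ := by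
      intro h3
      have h4 : H'.Normal := normalizer_eq_top_iff.1 h3
      have h5 : H.Normal := by
        have h6 : H = H'.subgroupOf L := by
          rw [hH'def]
          exact (Subgroup.comap_map_eq_self_of_injective L.subtype_injective H).symm
        rw [h6]
        infer_instance
      rcases C.simple.eq_bot_or_eq_top_of_normal H h5 with h6 | h6
      · exact hH h6
      · exact hH' h6
    have h3 := (hW _ hD (fun t ht => le_normalizer_of_inv hL hinv ht)).2
    intro s hs
    rw [mem_subgroupOf]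
    apply h3
    apply mem_normalizer_fintype
    rintro _ ⟨v, hv, rfl⟩
    exact ⟨s * v * s⁻¹, (mem_normalizer_iff.1 hs v).1 hv, rfl⟩
  have hL' : L ≤ normalizer (W : Set G) := subgroupOf_eq_top.1 key
  obtain ⟨g, hg⟩ := C.exists_conj hk hxn T₀
  apply C.normalizer_ne_top hWp hW1
  rw [eq_top_iff, ← (C.conj g).gen]
  exact sup_le hL' (zpowers_le.2 (hTW hg))

end Cfsg.Agent.H948
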